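import Cfsg.Agent.H366.LThreeFour
import Cfsg.Agent.H135.SLCyc

/-!
# Generators of `PSL₃(4)` containing a Frobenius group of order 21

`Quad f y t u` : `⟨f, y⟩ = 7 : 3`, the involutions `t`, `u` invert `y`, `(f t)³ = (f u)³ = (t u)³ = 1`,
`(t f u f⁻¹)⁴ = 1`; `PSL₃(4)` is generated by such elements.
-/

set_option autoImplicit false

open Matrix

namespace Cfsg.Agent.H868.JM

open Cfsg.Agent.H366.LThreeFour

/-- the relations -/
structure Quad {S : Type*} [Group S] (f y t u : S) : Prop where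
  f1 : f ≠ 1
  f7 : f ^ 7 = 1
  yf : y * f * y⁻¹ = f ^ 2
  y3 : y ^ 3 = 1
  tt : t * t = 1
  ty : t * y * t⁻¹ = y⁻¹
  ft : f * t * (f * t) * (f * t) = 1
  uu : u * u = 1
  uy : u * y * u⁻¹ = y⁻¹
  fu : f * u * (f * u) * (f * u) = 1
  ne : t ≠ u
  tu : t * u * (t * u) * (t * u) = 1
  tfu : t * f * u * f⁻¹ * (t * f * u * f⁻¹) * (t * f * u * f⁻¹) * (t * f * u * f⁻¹) = 1

theorem Quad.map {S S' : Type*} [Group S] [Group S'] {f y t u : S} (h : Quad f y t u) (e : S →* S')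
    (he : Function.Injective e) : Quad (e f) (e y) (e t) (e u) where
  f1 := by rw [Ne, map_eq_one_iff e he]; exact h.f1
  f7 := by rw [← map_pow, h.f7, map_one]
  yf := by rw [← map_mul, ← map_inv, ← map_mul, h.yf, map_pow]
  y3 := by rw [← map_pow, h.y3, map_one]
  tt := by rw [← map_mul, h.tt, map_one]
  ty := by rw [← map_mul, ← map_inv, ← map_mul, h.ty, map_inv]
  ft := by rw [← map_mul, ← map_mul, ← map_mul, h.ft, map_one]
  uu := by rw [← map_mul, h.uu, map_one]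
  uy := by rw [← map_mul, ← map_inv, ← map_mul, h.uy, map_inv]
  fu := by rw [← map_mul, ← map_mul, ← map_mul, h.fu, map_one]
  ne := fun hh => h.ne (he hh)
  tu := by rw [← map_mul, ← map_mul, ← map_mul, h.tu, map_one]
  tfu := by
    rw [← map_inv, ← map_mul, ← map_mul, ← map_mul, ← map_mul, ← map_mul, ← map_mul, h.tfu, map_one]

section gens

variable {F : Type*} [Field F] {w u : F}

/-- explicit element -/
def Mf (h : IsW w u) : SpecialLinearGroup (Fin 3) F := el !![0, 0, 1; 0, 1, 1; 1, 1, 0] (by f4det h)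

/-- explicit element -/
def Mf2 (h : IsW w u) : SpecialLinearGroup (Fin 3) F := el !![1, 1, 0; 1, 0, 1; 0, 1, 0] (by f4det h)

/-- explicit element -/
def Mf4 (h : IsW w u) : SpecialLinearGroup (Fin 3) F := el !![0, 1, 1; 1, 0, 0; 1, 0, 1] (by f4det h)

/-- explicit element -/
def Mfi (h : IsW w u) : SpecialLinearGroup (Fin 3) F := el !![1, 1, 1; 1, 1, 0; 1, 0, 0] (by f4det h)

/-- explicit element -/
def My (h : IsW w u) : SpecialLinearGroup (Fin 3) F := el !![0, 1, 0; 0, 0, 1; 1, 0, 0] (by f4det h)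

/-- explicit element -/
def Myi (h : IsW w u) : SpecialLinearGroup (Fin 3) F := el !![0, 0, 1; 1, 0, 0; 0, 1, 0] (by f4det h)

/-- explicit element -/
def Mt (h : IsW w u) : SpecialLinearGroup (Fin 3) F := el !![0, 1, 0; 1, 0, 0; 0, 0, 1] (by f4det h)

/-- explicit element -/
def Mu (h : IsW w u) : SpecialLinearGroup (Fin 3) F := el !![0, 0, w; 0, 1, 0; u, 0, 0] (by f4det h)

/-- explicit element -/
def MZ (h : IsW w u) : SpecialLinearGroup (Fin 3) F := el !![w, 0, 0; 0, w, 0; 0, 0, w] (by f4det h)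

/-- explicit element -/
def Myf (h : IsW w u) : SpecialLinearGroup (Fin 3) F := el !![0, 1, 1; 1, 1, 0; 0, 0, 1] (by f4det h)

/-- explicit element -/
def Mty (h : IsW w u) : SpecialLinearGroup (Fin 3) F := el !![0, 0, 1; 0, 1, 0; 1, 0, 0] (by f4det h)

/-- explicit element -/
def Mft (h : IsW w u) : SpecialLinearGroup (Fin 3) F := el !![0, 0, 1; 1, 0, 1; 1, 1, 0] (by f4det h)

/-- explicit element -/
def Mft2 (h : IsW w u) : SpecialLinearGroup (Fin 3) F := el !![1, 1, 0; 1, 1, 1; 1, 0, 0] (by f4det h)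

/-- explicit element -/
def Muy (h : IsW w u) : SpecialLinearGroup (Fin 3) F := el !![w, 0, 0; 0, 0, 1; 0, u, 0] (by f4det h)

/-- explicit element -/
def Myiu (h : IsW w u) : SpecialLinearGroup (Fin 3) F := el !![u, 0, 0; 0, 0, w; 0, 1, 0] (by f4det h)

/-- explicit element -/
def Mfu (h : IsW w u) : SpecialLinearGroup (Fin 3) F := el !![u, 0, 0; u, 1, 0; 0, 1, w] (by f4det h)

/-- explicit element -/
def Mfu2 (h : IsW w u) : SpecialLinearGroup (Fin 3) F := el !![w, 0, 0; 1, 1, 0; u, u, u] (by f4det h)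

/-- explicit element -/
def Mtu (h : IsW w u) : SpecialLinearGroup (Fin 3) F := el !![0, 1, 0; 0, 0, w; u, 0, 0] (by f4det h)

/-- explicit element -/
def Mtu2 (h : IsW w u) : SpecialLinearGroup (Fin 3) F := el !![0, 0, w; 1, 0, 0; 0, u, 0] (by f4det h)

/-- explicit element -/
def Mtf (h : IsW w u) : SpecialLinearGroup (Fin 3) F := el !![0, 1, 1; 0, 0, 1; 1, 1, 0] (by f4det h)

/-- explicit element -/
def Mtfu (h : IsW w u) : SpecialLinearGroup (Fin 3) F := el !![u, 1, 0; u, 0, 0; 0, 1, w] (by f4det h)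

/-- explicit element -/
def Mx (h : IsW w u) : SpecialLinearGroup (Fin 3) F := el !![w, w, u; u, u, u; u, 1, 0] (by f4det h)

/-- explicit element -/
def Mx2 (h : IsW w u) : SpecialLinearGroup (Fin 3) F := el !![0, 1, 0; 1, 0, 0; w, w, 1] (by f4det h)

/-- explicit element -/
def Md (h : IsW w u) : SpecialLinearGroup (Fin 3) F := el !![1, 0, 0; 0, w, 0; 0, 0, u] (by f4det h)

/-- explicit element -/
def Myft (h : IsW w u) : SpecialLinearGroup (Fin 3) F := el !![1, 0, 1; 1, 1, 0; 0, 0, 1] (by f4det h)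

/-- explicit element -/
def Myftf (h : IsW w u) : SpecialLinearGroup (Fin 3) F := el !![0, 1, 1; 0, 0, 1; 1, 0, 0] (by f4det h)

/-- explicit element -/
def ME1 (h : IsW w u) : SpecialLinearGroup (Fin 3) F := el !![1, 1, 0; 0, 1, 0; 0, 0, 1] (by f4det h)

/-- explicit element -/
def ME2 (h : IsW w u) : SpecialLinearGroup (Fin 3) F := el !![1, u, 0; 0, 1, 0; 0, 0, 1] (by f4det h)

/-- explicit element -/
def ME3 (h : IsW w u) : SpecialLinearGroup (Fin 3) F := el !![1, w, 0; 0, 1, 0; 0, 0, 1] (by f4det h)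

/-- explicit element -/
def MdE1 (h : IsW w u) : SpecialLinearGroup (Fin 3) F := el !![1, 1, 0; 0, w, 0; 0, 0, u] (by f4det h)

/-- explicit element -/
def MdE2 (h : IsW w u) : SpecialLinearGroup (Fin 3) F := el !![1, u, 0; 0, w, 0; 0, 0, u] (by f4det h)

theorem f_f (h : IsW w u) : Mf h * Mf h = Mf2 h := by
  have m : (!![0, 0, 1; 0, 1, 1; 1, 1, 0] : Matrix (Fin 3) (Fin 3) F) * !![0, 0, 1; 0, 1, 1; 1, 1, 0] = !![1, 1, 0; 1, 0, 1; 0, 1, 0] := by f4 h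
  exact Subtype.ext m

theorem f2_f2 (h : IsW w u) : Mf2 h * Mf2 h = Mf4 h := by
  have m : (!![1, 1, 0; 1, 0, 1; 0, 1, 0] : Matrix (Fin 3) (Fin 3) F) * !![1, 1, 0; 1, 0, 1; 0, 1, 0] = !![0, 1, 1; 1, 0, 0; 1, 0, 1] := by f4 h
  exact Subtype.ext m

theorem f4_f2 (h : IsW w u) : Mf4 h * Mf2 h = Mfi h := by
  have m : (!![0, 1, 1; 1, 0, 0; 1, 0, 1] : Matrix (Fin 3) (Fin 3) F) * !![1, 1, 0; 1, 0, 1; 0, 1, 0] = !![1, 1, 1; 1, 1, 0; 1, 0, 0] := by f4 h
  exact Subtype.ext m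

theorem fi_f (h : IsW w u) : Mfi h * Mf h = 1 := by
  have m : (!![1, 1, 1; 1, 1, 0; 1, 0, 0] : Matrix (Fin 3) (Fin 3) F) * !![0, 0, 1; 0, 1, 1; 1, 1, 0] = !![1, 0, 0; 0, 1, 0; 0, 0, 1] := by f4 h
  apply Subtype.ext
  exact m.trans one_fin_three_eq.symm

theorem y_y (h : IsW w u) : My h * My h = Myi h := by
  have m : (!![0, 1, 0; 0, 0, 1; 1, 0, 0] : Matrix (Fin 3) (Fin 3) F) * !![0, 1, 0; 0, 0, 1; 1, 0, 0] = !![0, 0, 1; 1, 0, 0; 0, 1, 0] := by f4 h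
  exact Subtype.ext m

theorem yi_y (h : IsW w u) : Myi h * My h = 1 := by
  have m : (!![0, 0, 1; 1, 0, 0; 0, 1, 0] : Matrix (Fin 3) (Fin 3) F) * !![0, 1, 0; 0, 0, 1; 1, 0, 0] = !![1, 0, 0; 0, 1, 0; 0, 0, 1] := by f4 h
  apply Subtype.ext
  exact m.trans one_fin_three_eq.symm

theorem y_f (h : IsW w u) : My h * Mf h = Myf h := by
  have m : (!![0, 1, 0; 0, 0, 1; 1, 0, 0] : Matrix (Fin 3) (Fin 3) F) * !![0, 0, 1; 0, 1, 1; 1, 1, 0] = !![0, 1, 1; 1, 1, 0; 0, 0, 1] := by f4 h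
  exact Subtype.ext m

theorem f2_y (h : IsW w u) : Mf2 h * My h = Myf h := by
  have m : (!![1, 1, 0; 1, 0, 1; 0, 1, 0] : Matrix (Fin 3) (Fin 3) F) * !![0, 1, 0; 0, 0, 1; 1, 0, 0] = !![0, 1, 1; 1, 1, 0; 0, 0, 1] := by f4 h
  exact Subtype.ext m

theorem t_t (h : IsW w u) : Mt h * Mt h = 1 := by
  have m : (!![0, 1, 0; 1, 0, 0; 0, 0, 1] : Matrix (Fin 3) (Fin 3) F) * !![0, 1, 0; 1, 0, 0; 0, 0, 1] = !![1, 0, 0; 0, 1, 0; 0, 0, 1] := by f4 h
  apply Subtype.ext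
  exact m.trans one_fin_three_eq.symm

theorem t_y (h : IsW w u) : Mt h * My h = Mty h := by
  have m : (!![0, 1, 0; 1, 0, 0; 0, 0, 1] : Matrix (Fin 3) (Fin 3) F) * !![0, 1, 0; 0, 0, 1; 1, 0, 0] = !![0, 0, 1; 0, 1, 0; 1, 0, 0] := by f4 h
  exact Subtype.ext m

theorem yi_t (h : IsW w u) : Myi h * Mt h = Mty h := by
  have m : (!![0, 0, 1; 1, 0, 0; 0, 1, 0] : Matrix (Fin 3) (Fin 3) F) * !![0, 1, 0; 1, 0, 0; 0, 0, 1] = !![0, 0, 1; 0, 1, 0; 1, 0, 0] := by f4 h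
  exact Subtype.ext m

theorem f_t (h : IsW w u) : Mf h * Mt h = Mft h := by
  have m : (!![0, 0, 1; 0, 1, 1; 1, 1, 0] : Matrix (Fin 3) (Fin 3) F) * !![0, 1, 0; 1, 0, 0; 0, 0, 1] = !![0, 0, 1; 1, 0, 1; 1, 1, 0] := by f4 h
  exact Subtype.ext m

theorem ft_ft (h : IsW w u) : Mft h * Mft h = Mft2 h := by
  have m : (!![0, 0, 1; 1, 0, 1; 1, 1, 0] : Matrix (Fin 3) (Fin 3) F) * !![0, 0, 1; 1, 0, 1; 1, 1, 0] = !![1, 1, 0; 1, 1, 1; 1, 0, 0] := by f4 h
  exact Subtype.ext m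

theorem ft2_ft (h : IsW w u) : Mft2 h * Mft h = 1 := by
  have m : (!![1, 1, 0; 1, 1, 1; 1, 0, 0] : Matrix (Fin 3) (Fin 3) F) * !![0, 0, 1; 1, 0, 1; 1, 1, 0] = !![1, 0, 0; 0, 1, 0; 0, 0, 1] := by f4 h
  apply Subtype.ext
  exact m.trans one_fin_three_eq.symm

theorem u_u (h : IsW w u) : Mu h * Mu h = 1 := by
  have m : (!![0, 0, w; 0, 1, 0; u, 0, 0] : Matrix (Fin 3) (Fin 3) F) * !![0, 0, w; 0, 1, 0; u, 0, 0] = !![1, 0, 0; 0, 1, 0; 0, 0, 1] := by f4 h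
  apply Subtype.ext
  exact m.trans one_fin_three_eq.symm

theorem u_y (h : IsW w u) : Mu h * My h = Muy h := by
  have m : (!![0, 0, w; 0, 1, 0; u, 0, 0] : Matrix (Fin 3) (Fin 3) F) * !![0, 1, 0; 0, 0, 1; 1, 0, 0] = !![w, 0, 0; 0, 0, 1; 0, u, 0] := by f4 h
  exact Subtype.ext m

theorem yi_u (h : IsW w u) : Myi h * Mu h = Myiu h := by
  have m : (!![0, 0, 1; 1, 0, 0; 0, 1, 0] : Matrix (Fin 3) (Fin 3) F) * !![0, 0, w; 0, 1, 0; u, 0, 0] = !![u, 0, 0; 0, 0, w; 0, 1, 0] := by f4 h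
  exact Subtype.ext m

/-- explicit element -/
def MZyiu (h : IsW w u) : SpecialLinearGroup (Fin 3) F := el !![1, 0, 0; 0, 0, u; 0, w, 0] (by f4det h)

theorem z_yiu (h : IsW w u) : MZ h * Myiu h = MZyiu h := by
  have m : (!![w, 0, 0; 0, w, 0; 0, 0, w] : Matrix (Fin 3) (Fin 3) F) * !![u, 0, 0; 0, 0, w; 0, 1, 0] = !![1, 0, 0; 0, 0, u; 0, w, 0] := by f4 h
  exact Subtype.ext m

theorem z_zyiu (h : IsW w u) : MZ h * MZyiu h = Muy h := by
  have m : (!![w, 0, 0; 0, w, 0; 0, 0, w] : Matrix (Fin 3) (Fin 3) F) * !![1, 0, 0; 0, 0, u; 0, w, 0] = !![w, 0, 0; 0, 0, 1; 0, u, 0] := by f4 h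
  exact Subtype.ext m

theorem f_u (h : IsW w u) : Mf h * Mu h = Mfu h := by
  have m : (!![0, 0, 1; 0, 1, 1; 1, 1, 0] : Matrix (Fin 3) (Fin 3) F) * !![0, 0, w; 0, 1, 0; u, 0, 0] = !![u, 0, 0; u, 1, 0; 0, 1, w] := by f4 h
  exact Subtype.ext m

theorem fu_fu (h : IsW w u) : Mfu h * Mfu h = Mfu2 h := by
  have m : (!![u, 0, 0; u, 1, 0; 0, 1, w] : Matrix (Fin 3) (Fin 3) F) * !![u, 0, 0; u, 1, 0; 0, 1, w] = !![w, 0, 0; 1, 1, 0; u, u, u] := by f4 h
  exact Subtype.ext m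

theorem fu2_fu (h : IsW w u) : Mfu2 h * Mfu h = 1 := by
  have m : (!![w, 0, 0; 1, 1, 0; u, u, u] : Matrix (Fin 3) (Fin 3) F) * !![u, 0, 0; u, 1, 0; 0, 1, w] = !![1, 0, 0; 0, 1, 0; 0, 0, 1] := by f4 h
  apply Subtype.ext
  exact m.trans one_fin_three_eq.symm

theorem t_u (h : IsW w u) : Mt h * Mu h = Mtu h := by
  have m : (!![0, 1, 0; 1, 0, 0; 0, 0, 1] : Matrix (Fin 3) (Fin 3) F) * !![0, 0, w; 0, 1, 0; u, 0, 0] = !![0, 1, 0; 0, 0, w; u, 0, 0] := by f4 h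
  exact Subtype.ext m

theorem tu_tu (h : IsW w u) : Mtu h * Mtu h = Mtu2 h := by
  have m : (!![0, 1, 0; 0, 0, w; u, 0, 0] : Matrix (Fin 3) (Fin 3) F) * !![0, 1, 0; 0, 0, w; u, 0, 0] = !![0, 0, w; 1, 0, 0; 0, u, 0] := by f4 h
  exact Subtype.ext m

theorem tu2_tu (h : IsW w u) : Mtu2 h * Mtu h = 1 := by
  have m : (!![0, 0, w; 1, 0, 0; 0, u, 0] : Matrix (Fin 3) (Fin 3) F) * !![0, 1, 0; 0, 0, w; u, 0, 0] = !![1, 0, 0; 0, 1, 0; 0, 0, 1] := by f4 h
  apply Subtype.ext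
  exact m.trans one_fin_three_eq.symm

theorem t_f (h : IsW w u) : Mt h * Mf h = Mtf h := by
  have m : (!![0, 1, 0; 1, 0, 0; 0, 0, 1] : Matrix (Fin 3) (Fin 3) F) * !![0, 0, 1; 0, 1, 1; 1, 1, 0] = !![0, 1, 1; 0, 0, 1; 1, 1, 0] := by f4 h
  exact Subtype.ext m

theorem tf_u (h : IsW w u) : Mtf h * Mu h = Mtfu h := by
  have m : (!![0, 1, 1; 0, 0, 1; 1, 1, 0] : Matrix (Fin 3) (Fin 3) F) * !![0, 0, w; 0, 1, 0; u, 0, 0] = !![u, 1, 0; u, 0, 0; 0, 1, w] := by f4 h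
  exact Subtype.ext m

theorem tfu_fi (h : IsW w u) : Mtfu h * Mfi h = Mx h := by
  have m : (!![u, 1, 0; u, 0, 0; 0, 1, w] : Matrix (Fin 3) (Fin 3) F) * !![1, 1, 1; 1, 1, 0; 1, 0, 0] = !![w, w, u; u, u, u; u, 1, 0] := by f4 h
  exact Subtype.ext m

theorem x_x (h : IsW w u) : Mx h * Mx h = Mx2 h := by
  have m : (!![w, w, u; u, u, u; u, 1, 0] : Matrix (Fin 3) (Fin 3) F) * !![w, w, u; u, u, u; u, 1, 0] = !![0, 1, 0; 1, 0, 0; w, w, 1] := by f4 h
  exact Subtype.ext m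

theorem x2_x2 (h : IsW w u) : Mx2 h * Mx2 h = 1 := by
  have m : (!![0, 1, 0; 1, 0, 0; w, w, 1] : Matrix (Fin 3) (Fin 3) F) * !![0, 1, 0; 1, 0, 0; w, w, 1] = !![1, 0, 0; 0, 1, 0; 0, 0, 1] := by f4 h
  apply Subtype.ext
  exact m.trans one_fin_three_eq.symm

theorem tu_yi (h : IsW w u) : Mtu h * Myi h = Md h := by
  have m : (!![0, 1, 0; 0, 0, w; u, 0, 0] : Matrix (Fin 3) (Fin 3) F) * !![0, 0, 1; 1, 0, 0; 0, 1, 0] = !![1, 0, 0; 0, w, 0; 0, 0, u] := by f4 h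
  exact Subtype.ext m

theorem yf_t (h : IsW w u) : Myf h * Mt h = Myft h := by
  have m : (!![0, 1, 1; 1, 1, 0; 0, 0, 1] : Matrix (Fin 3) (Fin 3) F) * !![0, 1, 0; 1, 0, 0; 0, 0, 1] = !![1, 0, 1; 1, 1, 0; 0, 0, 1] := by f4 h
  exact Subtype.ext m

theorem yft_fi (h : IsW w u) : Myft h * Mfi h = Myftf h := by
  have m : (!![1, 0, 1; 1, 1, 0; 0, 0, 1] : Matrix (Fin 3) (Fin 3) F) * !![1, 1, 1; 1, 1, 0; 1, 0, 0] = !![0, 1, 1; 0, 0, 1; 1, 0, 0] := by f4 h
  exact Subtype.ext m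

theorem yftf_yi (h : IsW w u) : Myftf h * Myi h = ME1 h := by
  have m : (!![0, 1, 1; 0, 0, 1; 1, 0, 0] : Matrix (Fin 3) (Fin 3) F) * !![0, 0, 1; 1, 0, 0; 0, 1, 0] = !![1, 1, 0; 0, 1, 0; 0, 0, 1] := by f4 h
  exact Subtype.ext m

theorem d_E1 (h : IsW w u) : Md h * ME1 h = MdE1 h := by
  have m : (!![1, 0, 0; 0, w, 0; 0, 0, u] : Matrix (Fin 3) (Fin 3) F) * !![1, 1, 0; 0, 1, 0; 0, 0, 1] = !![1, 1, 0; 0, w, 0; 0, 0, u] := by f4 h
  exact Subtype.ext m

theorem E2_d (h : IsW w u) : ME2 h * Md h = MdE1 h := by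
  have m : (!![1, u, 0; 0, 1, 0; 0, 0, 1] : Matrix (Fin 3) (Fin 3) F) * !![1, 0, 0; 0, w, 0; 0, 0, u] = !![1, 1, 0; 0, w, 0; 0, 0, u] := by f4 h
  exact Subtype.ext m

theorem d_E2 (h : IsW w u) : Md h * ME2 h = MdE2 h := by
  have m : (!![1, 0, 0; 0, w, 0; 0, 0, u] : Matrix (Fin 3) (Fin 3) F) * !![1, u, 0; 0, 1, 0; 0, 0, 1] = !![1, u, 0; 0, w, 0; 0, 0, u] := by f4 h
  exact Subtype.ext m

theorem E3_d (h : IsW w u) : ME3 h * Md h = MdE2 h := by
  have m : (!![1, w, 0; 0, 1, 0; 0, 0, 1] : Matrix (Fin 3) (Fin 3) F) * !![1, 0, 0; 0, w, 0; 0, 0, u] = !![1, u, 0; 0, w, 0; 0, 0, u] := by f4 h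
  exact Subtype.ext m

/-! ### The relations -/

theorem quad_sl_seven (h : IsW w u) : Mf h ^ 7 = 1 := by
  rw [show (7 : ℕ) = 4 + 2 + 1 by norm_num, pow_add, pow_add, show (4 : ℕ) = 2 * 2 by norm_num,
    pow_mul, pow_two (Mf h), f_f, pow_two, f2_f2, pow_one, f4_f2, fi_f]

theorem Mf_inv (h : IsW w u) : (Mf h)⁻¹ = Mfi h := inv_eq_of_mul_eq_one_left (fi_f h)
theorem My_inv (h : IsW w u) : (My h)⁻¹ = Myi h := inv_eq_of_mul_eq_one_left (yi_y h)
theorem Mt_inv (h : IsW w u) : (Mt h)⁻¹ = Mt h := inv_eq_of_mul_eq_one_left (t_t h)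
theorem Mu_inv (h : IsW w u) : (Mu h)⁻¹ = Mu h := inv_eq_of_mul_eq_one_left (u_u h)

theorem MZ_mem (h : IsW w u) : q (MZ h) = 1 := by
  have e : MZ h = Z h := rfl
  rw [e]
  exact qZ h

theorem quad_psl (h : IsW w u) : Quad (q (Mf h)) (q (My h)) (q (Mt h)) (q (Mu h)) where
  f1 := q_ne_one (i := 0) (j := 2) (by decide) (by
    show (1 : F) ≠ 0
    exact one_ne_zero)
  f7 := by rw [← map_pow, quad_sl_seven, map_one]
  yf := by
    rw [← map_mul, ← map_inv, ← map_mul, ← map_pow]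
    congr 1
    rw [mul_inv_eq_iff_eq_mul, pow_two, f_f, y_f, f2_y]
  y3 := by
    rw [← map_pow]
    have : My h ^ 3 = 1 := by rw [pow_succ, pow_two, y_y, yi_y]
    rw [this, map_one]
  tt := by rw [← map_mul, t_t, map_one]
  ty := by
    rw [← map_mul, ← map_inv, ← map_inv, ← map_mul]
    congr 1
    rw [mul_inv_eq_iff_eq_mul, t_y, My_inv, yi_t]
  ft := by rw [← map_mul, ← map_mul, ← map_mul, f_t, ft_ft, ft2_ft, map_one]
  uu := by rw [← map_mul, u_u, map_one]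
  uy := by
    rw [mul_inv_eq_iff_eq_mul, ← map_inv, ← map_mul, ← map_mul, u_y, My_inv, yi_u,
      ← z_zyiu, ← z_yiu, map_mul, map_mul, MZ_mem, one_mul, one_mul]
  fu := by rw [← map_mul, ← map_mul, ← map_mul, f_u, fu_fu, fu2_fu, map_one]
  ne := by
    intro hh
    have h1 : q (Mtu h) = 1 := by
      rw [← t_u, map_mul, ← hh, ← map_mul, t_t, map_one]
    exact q_ne_one (A := Mtu h) (i := 0) (j := 1) (by decide) (by
      show (1 : F) ≠ 0
      exact one_ne_zero) h1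
  tu := by rw [← map_mul, ← map_mul, ← map_mul, t_u, tu_tu, tu2_tu, map_one]
  tfu := by
    rw [← map_inv, ← map_mul, ← map_mul, ← map_mul, ← map_mul, ← map_mul, ← map_mul, Mf_inv,
      t_f, tf_u, tfu_fi, x_x, mul_assoc, x_x, x2_x2, map_one]

theorem transv_coe (h01 : (0 : Fin 3) ≠ 1) (a : F) :
    ((SpecialLinearGroup.transvection h01 a : SpecialLinearGroup (Fin 3) F) :
      Matrix (Fin 3) (Fin 3) F) = !![1, a, 0; 0, 1, 0; 0, 0, 1] := by
  ext i j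
  fin_cases i <;> fin_cases j <;>
    simp [SpecialLinearGroup.transvection, Matrix.transvection, Matrix.single, Matrix.one_apply]

theorem four_cases [Fintype F] (hF : Fintype.card F = 4) (h : IsW w u) (a : F) :
    a = 0 ∨ a = 1 ∨ a = w ∨ a = u := by
  classical
  have hwu : w ≠ u := by
    intro e
    have h1 := h.awu
    rw [e, h.auu] at h1
    exact zero_ne_one h1
  have hu1 : u ≠ 1 := by
    intro e
    have h1 := h.a1u
    rw [e, h.a11] at h1
    exact h.w0 h1.symm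
  have h1 : ({0, 1, w, u} : Finset F).card = 4 := by
    rw [Finset.card_insert_of_notMem, Finset.card_insert_of_notMem, Finset.card_insert_of_notMem,
      Finset.card_singleton]
    · simpa using hwu
    · simp only [Finset.mem_insert, Finset.mem_singleton, not_or]
      exact ⟨fun e => h.w1 e.symm, fun e => hu1 e.symm⟩
    · simp only [Finset.mem_insert, Finset.mem_singleton, not_or]
      exact ⟨zero_ne_one, fun e => h.w0 e.symm, fun e => h.u0 e.symm⟩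
  have h2 : ({0, 1, w, u} : Finset F) = Finset.univ :=
    Finset.eq_univ_of_card _ (by rw [h1, hF])
  have h3 : a ∈ ({0, 1, w, u} : Finset F) := by rw [h2]; exact Finset.mem_univ a
  simpa using h3

theorem q_surj : Function.Surjective (q (F := F)) := QuotientGroup.mk'_surjective _

/-- **generation** -/
theorem gens_top [Fintype F] (hF : Fintype.card F = 4) (h : IsW w u) :
    Subgroup.closure {q (Mf h), q (My h), q (Mt h), q (Mu h)} = ⊤ := by
  set K := Subgroup.closure {q (Mf h), q (My h), q (Mt h), q (Mu h)} with hK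
  set H := K.comap q with hH
  have hf : Mf h ∈ H := Subgroup.subset_closure (by simp)
  have hy : My h ∈ H := Subgroup.subset_closure (by simp)
  have ht : Mt h ∈ H := Subgroup.subset_closure (by simp)
  have hu : Mu h ∈ H := Subgroup.subset_closure (by simp)
  have hfi : Mfi h ∈ H := by rw [← Mf_inv]; exact H.inv_mem hf
  have hyi : Myi h ∈ H := by rw [← My_inv]; exact H.inv_mem hy
  have hd : Md h ∈ H := by rw [← tu_yi, ← t_u]; exact H.mul_mem (H.mul_mem ht hu) hyi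
  have hE1 : ME1 h ∈ H := by
    rw [← yftf_yi, ← yft_fi, ← yf_t, ← y_f]
    exact H.mul_mem (H.mul_mem (H.mul_mem (H.mul_mem hy hf) ht) hfi) hyi
  have hE2 : ME2 h ∈ H := by
    have e : ME2 h = Md h * ME1 h * (Md h)⁻¹ := by
      rw [eq_mul_inv_iff_mul_eq, E2_d, d_E1]
    rw [e]; exact H.mul_mem (H.mul_mem hd hE1) (H.inv_mem hd)
  have hE3 : ME3 h ∈ H := by
    have e : ME3 h = Md h * ME2 h * (Md h)⁻¹ := by
      rw [eq_mul_inv_iff_mul_eq, E3_d, d_E2]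
    rw [e]; exact H.mul_mem (H.mul_mem hd hE2) (H.inv_mem hd)
  have h01 : (0 : Fin 3) ≠ 1 := by decide
  have htop : H = ⊤ := by
    refine Cfsg.Agent.H135.SLCyc.eq_top_of_mem (n := 2) (by norm_num) (My h) ?_ H hy h01 ?_
    · ext i j
      fin_cases i <;> fin_cases j <;> simp [My, el]
    · intro a
      rcases four_cases hF h a with rfl | rfl | rfl | rfl
      · have e : SpecialLinearGroup.transvection h01 (0 : F) = 1 := by
          apply Subtype.ext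
          exact (transv_coe h01 0).trans one_fin_three_eq.symm
        rw [e]; exact H.one_mem
      · have e : SpecialLinearGroup.transvection h01 (1 : F) = ME1 h :=
          Subtype.ext (transv_coe h01 1)
        rw [e]; exact hE1
      · have e : SpecialLinearGroup.transvection h01 a = ME3 h :=
          Subtype.ext (transv_coe h01 a)
        rw [e]; exact hE3
      · have e : SpecialLinearGroup.transvection h01 a = ME2 h :=
          Subtype.ext (transv_coe h01 a)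
        rw [e]; exact hE2
  rw [eq_top_iff]
  rintro x -
  obtain ⟨g, rfl⟩ := q_surj x
  have : g ∈ H := by rw [htop]; exact Subgroup.mem_top _
  exact this

end gens

/-- **`PSL₃(4)` is generated by elements with the relations `Quad`** -/
theorem exists_quad {F : Type*} [Field F] [Fintype F] (hF : Fintype.card F = 4) {S : Type*} [Group S]
    (e : S ≃* ProjectiveSpecialLinearGroup (Fin 3) F) :
    ∃ f y t u : S, Quad f y t u ∧ Subgroup.closure {f, y, t, u} = ⊤ := by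
  obtain ⟨w, u, h⟩ := exists_isW hF
  refine ⟨e.symm (q (Mf h)), e.symm (q (My h)), e.symm (q (Mt h)), e.symm (q (Mu h)),
    (quad_psl h).map e.symm.toMonoidHom e.symm.injective, ?_⟩
  have h1 := congrArg (Subgroup.map e.symm.toMonoidHom) (gens_top hF h)
  rw [MonoidHom.map_closure] at h1
  have h2 : e.symm.toMonoidHom '' {q (Mf h), q (My h), q (Mt h), q (Mu h)} =
      {e.symm (q (Mf h)), e.symm (q (My h)), e.symm (q (Mt h)), e.symm (q (Mu h))} := by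
    rw [Set.image_insert_eq, Set.image_insert_eq, Set.image_insert_eq, Set.image_singleton]
    rfl
  rw [h2] at h1
  rw [h1, ← MonoidHom.range_eq_map, MonoidHom.range_eq_top]
  exact e.symm.surjective

end Cfsg.Agent.H868.JM
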