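import Cfsg.Agent.H868.JM.L34D
import Cfsg.Agent.H868.JM.L34Gen
import Cfsg.Agent.H860.JM.Cj
import Cfsg.Agent.CTwoTab.Exc

/-!
# `PSL₃(4)` is not the socle of a maximal subgroup of `J4`
-/

set_option autoImplicit false
set_option maxRecDepth 100000

open Cfsg

namespace Cfsg.Agent.H868.JM.L34

open Cfsg.Agent.Lib Cfsg.Agent.Lib.F2Mat Cfsg.Agent.Lib.F2MatGroup
open Cfsg.Agent.J4.Rep112 Cfsg.Agent.J4.LowerData
open Cfsg.Agent.H858 Cfsg.Agent.H858.VK Cfsg.Agent.H858.Data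
open Cfsg.Agent.H68.JM (ac tv ac_one ac_mul ac_inv ac_code ac_code' vword vword_sound vword_lt Row)
open Cfsg.Agent.H111.JM.Eng Cfsg.Agent.H111.JM.Env Cfsg.Agent.H111.JM.EnvF Cfsg.Agent.H111.JM.G0
open Cfsg.Agent.H111.JM.Sol
open Cfsg.Agent.H868.JM (f1 f2 q1 c6 g2 I2)
open Cfsg.Agent.H860.JM (NL Excl cj cj_cj mem_cj cj_eq_iff centralizer_cj normalizer_cj)

local notation "𝒢" => Cfsg.Spor.J4
local notation "yy" => Cfsg.Agent.H878.JM.Base.y0

attribute [local irreducible] f1 f2 q1 c6 Cfsg.Agent.H878.JM.Base.y0 Cfsg.Agent.H878.JM.Base.c1 Cfsg.Agent.H878.JM.Base.c2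
  Cfsg.Agent.H878.JM.Base.c3 Cfsg.Agent.H878.JM.Base.t1 Cfsg.Agent.H878.JM.Base.t2
  Cfsg.Agent.H878.JM.Base.t3

/-! ### Conjugation -/

theorem cj_le {g : 𝒢} {A B : Subgroup 𝒢} (h : A ≤ B) : cj g A ≤ cj g B := by
  intro x hx
  rw [mem_cj] at hx ⊢
  exact h hx

theorem cj_inv (g : 𝒢) (A : Subgroup 𝒢) : cj g⁻¹ (cj g A) = A := by
  rw [cj_cj, inv_mul_cancel, cj_eq_iff]
  exact Subgroup.one_mem _

theorem cj_inv' (g : 𝒢) (A : Subgroup 𝒢) : cj g (cj g⁻¹ A) = A := by
  rw [cj_cj, mul_inv_cancel, cj_eq_iff]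
  exact Subgroup.one_mem _

theorem cj_top (g : 𝒢) : cj g (⊤ : Subgroup 𝒢) = ⊤ := by
  rw [eq_top_iff]
  intro x _
  rw [mem_cj]
  exact Subgroup.mem_top _

theorem cj_bot (g : 𝒢) : cj g (⊥ : Subgroup 𝒢) = ⊥ := Subgroup.map_bot _

theorem NL_cj {M S : Subgroup 𝒢} (g : 𝒢) (h : NL M S) : NL (cj g M) (cj g S) := by
  have e : S ≃* (cj g S : Subgroup 𝒢) := S.equivMapOfInjective _ (MulAut.conj g).injective
  refine ⟨⟨?_, ?_⟩, cj_le h.le, ?_, ?_, ?_, ?_⟩
  · intro h1
    apply h.coatom.1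
    rw [← cj_inv g M, h1, cj_top]
  · intro B hB
    have h1 : M < cj g⁻¹ B := by
      refine lt_of_le_of_ne ?_ ?_
      · rw [← cj_inv g M]; exact cj_le hB.le
      · intro h2
        apply hB.ne
        rw [h2, cj_inv']
    have h2 := h.coatom.2 _ h1
    rw [← cj_inv' g B, h2, cj_top]
  · rw [normalizer_cj]; exact cj_le h.norm
  · have := h.simple
    exact (MulEquiv.isSimpleGroup e.symm)
  · intro h1
    apply h.nab
    exact ⟨⟨fun a b => e.injective (by rw [map_mul, map_mul]; exact h1.is_comm.comm _ _)⟩⟩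
  · rw [centralizer_cj, h.cent, cj_bot]

theorem quad_conj {f y t u : 𝒢} (h : Quad f y t u) (g : 𝒢) :
    Quad (g * f * g⁻¹) (g * y * g⁻¹) (g * t * g⁻¹) (g * u * g⁻¹) :=
  h.map (MulAut.conj g).toMonoidHom (MulAut.conj g).injective

theorem cj_closure (f y t u g : 𝒢) : cj g (Subgroup.closure {f, y, t, u}) =
    Subgroup.closure {g * f * g⁻¹, g * y * g⁻¹, g * t * g⁻¹, g * u * g⁻¹} := by
  have h : cj g (Subgroup.closure {f, y, t, u}) =
      (Subgroup.closure {f, y, t, u}).map (MulAut.conj g).toMonoidHom := rfl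
  rw [h, MonoidHom.map_closure, Set.image_insert_eq, Set.image_insert_eq, Set.image_insert_eq,
    Set.image_singleton]
  rfl

/-- the configuration -/
structure Cf (M S : Subgroup 𝒢) (f t u : 𝒢) : Prop where
  nl : NL M S
  card : Nat.card S = 20160
  q : Quad f yy t u
  cl : S = Subgroup.closure {f, yy, t, u}

namespace Cf

variable {M S : Subgroup 𝒢} {f t u : 𝒢}

theorem conj (h : Cf M S f t u) {c : 𝒢} (hf : c * f = f * c) (hy : c * yy = yy * c) :
    Cf (cj c M) (cj c S) f (c * t * c⁻¹) (c * u * c⁻¹) := by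
  have h1 : c * f * c⁻¹ = f := by rw [hf, mul_inv_cancel_right]
  have h2 : c * yy * c⁻¹ = yy := by rw [hy, mul_inv_cancel_right]
  refine ⟨NL_cj c h.nl, ?_, ?_, ?_⟩
  · rw [Cfsg.Agent.H860.JM.card_cj, h.card]
  · have := quad_conj h.q c
    rwa [h1, h2] at this
  · rw [h.cl, cj_closure, h1, h2]

theorem tyt (h : Cf M S f t u) : TY t := ⟨h.q.tt, h.q.ty⟩
theorem tyu (h : Cf M S f t u) : TY u := ⟨h.q.uu, h.q.uy⟩

theorem f_mem (h : Cf M S f t u) : f ∈ S := by
  rw [h.cl]; exact Subgroup.subset_closure (by simp)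
theorem y_mem (h : Cf M S f t u) : yy ∈ S := by
  rw [h.cl]; exact Subgroup.subset_closure (by simp)
theorem t_mem (h : Cf M S f t u) : t ∈ S := by
  rw [h.cl]; exact Subgroup.subset_closure (by simp)
theorem u_mem (h : Cf M S f t u) : u ∈ S := by
  rw [h.cl]; exact Subgroup.subset_closure (by simp)

theorem le (h : Cf M S f t u) {K : Subgroup 𝒢} (h1 : f ∈ K) (h2 : yy ∈ K) (h3 : t ∈ K)
    (h4 : u ∈ K) : S ≤ K := by
  rw [h.cl, Subgroup.closure_le]
  rintro x (rfl | rfl | rfl | rfl)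
  · exact h1
  · exact h2
  · exact h3
  · exact h4

/-- an element commuting with the generators is trivial -/
theorem eq_one (h : Cf M S f t u) {x : 𝒢} (h1 : x * f = f * x) (h2 : x * yy = yy * x)
    (h3 : x * t = t * x) (h4 : x * u = u * x) : x = 1 := by
  have h5 : S ≤ Subgroup.centralizer {x} := by
    apply h.le <;> rw [Subgroup.mem_centralizer_singleton_iff]
    · exact h1.symm
    · exact h2.symm
    · exact h3.symm
    · exact h4.symm
  have h6 : x ∈ Subgroup.centralizer (S : Set 𝒢) := by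
    rw [Subgroup.mem_centralizer_iff]
    intro s hs
    exact Subgroup.mem_centralizer_singleton_iff.1 (h5 hs)
  rw [h.nl.cent] at h6
  exact Subgroup.mem_bot.1 h6

end Cf

/-! ### Packed matrices -/

/-- equal elements have equal packed matrices -/
theorem beq_of {L : List 𝒢} {E : List ℕ} (h : List.Forall₂ (Codes 112) (L.map rho) E)
    {w v : List ℕ} (hw : evG L w = evG L v) : Nat.beq (evW 112 E w) (evW 112 E v) = true := by
  have e1 := codes_evW h w
  have e2 := codes_evW h v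
  rw [evG_map] at e1 e2
  unfold Codes at e1 e2
  have h1 : toMat 112 (evW 112 E w) = toMat 112 (evW 112 E v) := by
    rw [← e1, ← e2, hw]
  have h2 := toMat_inj (evW_lt (by norm_num) E w) (evW_lt (by norm_num) E v) h1
  rw [h2]
  exact Nat.beq_refl _

theorem eq_of_beq {L : List 𝒢} {E : List ℕ} (h : List.Forall₂ (Codes 112) (L.map rho) E)
    {w v : List ℕ} (hb : Nat.beq (evW 112 E w) (evW 112 E v) = true) : evG L w = evG L v := by
  have e1 := codes_evW h w
  have e2 := codes_evW h v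
  rw [evG_map] at e1 e2
  exact rho_injective (Codes.eq e1 e2 hb)

theorem getG_TR {m : ℕ} (hm : m < 8) : getG TR m = rm m := by
  interval_cases m <;> rfl

theorem codes_rm {m : ℕ} (hm : m < 8) : Codes 112 (rho (rm m)) (get (F2Mat.one 112) LR m) := by
  have h := codes_get hR m
  rwa [getG_map, getG_TR hm] at h

theorem henv {m : ℕ} (hm : m < 8) {u : 𝒢} {A : ℕ} (hA : Codes 112 (rho u) A) :
    List.Forall₂ (Codes 112) ((u :: rm m :: L0).map rho) (env m A) :=
  .cons hA (.cons (codes_rm hm) hL)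

theorem rel_sound {a m : ℕ} (hm : m < 8) {f u : 𝒢} {A : ℕ} (hA : Codes 112 (rho u) A)
    (hf : getG (u :: rm m :: L0) a = f) (hf' : getG (u :: rm m :: L0) (a + 1) = f⁻¹)
    (hq : Quad f yy (rm m) u) {b : Bool} (h : rel a m A b = true) : b = true := by
  unfold rel at h
  have h1 : Nat.beq A (get (F2Mat.one 112) LR m) = false := by
    rcases hb : Nat.beq A (get (F2Mat.one 112) LR m) with _ | _
    · rfl
    · exfalso
      exact hq.ne (rho_injective (Codes.eq (codes_rm hm) hA (by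
        rw [Nat.eq_of_beq_eq_true hb]; exact Nat.beq_refl _)))
  have h2 : Nat.beq (evW 112 (env m A) r1) (evW 112 (env m A) []) = true := by
    apply beq_of (henv hm hA)
    have h3 := hq.tu
    simp only [r1, evG_cons, evG_nil, mul_one]
    rw [← h3]
    simp only [mul_assoc]
    rfl
  have h3 : Nat.beq (evW 112 (env m A) (r2 a)) (evW 112 (env m A) []) = true := by
    apply beq_of (henv hm hA)
    have h3 := hq.tfu
    simp only [r2, evG_cons, evG_nil, mul_one, hf, hf']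
    rw [← h3]
    simp only [mul_assoc]
    rfl
  rw [h1, h2, h3] at h
  exact h


/-! ### The first type -/

theorem comm_w {a b : List ℕ} (h : Nat.beq (evW 112 LM (a ++ b)) (evW 112 LM (b ++ a)) = true) :
    evG L0 a * evG L0 b = evG L0 b * evG L0 a := by
  rw [← evG_append', ← evG_append']
  exact eq_w h

/-- the involution commuting with `f1`, `y0`, `rm 0` -/
noncomputable def x0 : 𝒢 := evG L0 wx0

theorem x0_f1 : x0 * f1 = f1 * x0 := by
  have h := comm_w (a := wx0) (b := [0]) (by decide +kernel)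
  rw [show evG L0 [0] = f1 by rw [evG_cons, evG_nil, mul_one]; rfl] at h
  exact h

theorem x0_y0 : x0 * yy = yy * x0 := by
  have h := comm_w (a := wx0) (b := [9]) (by decide +kernel)
  rw [show evG L0 [9] = yy by rw [evG_cons, evG_nil, mul_one]; rfl] at h
  exact h

theorem x0_rm : x0 * rm 0 = rm 0 * x0 := comm_w (a := wx0) (b := rw0) (by decide +kernel)

theorem x0_ne_one : x0 ≠ 1 := ne_w (w := wx0) (v := []) x0_ne

theorem no_one (hcard : Nat.card {t // TY t} ≤ 10296) {M S : Subgroup 𝒢} {t u : 𝒢}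
    (h : Cf M S f1 t u) : False := by
  have := finite_J4
  obtain ⟨m, hm, c, hc1, hc2, hc3⟩ := sol1 hcard h.tyt h.q.ft
  have h' := h.conj hc1 hc2
  rw [hc3] at h'
  obtain ⟨hu, -⟩ := sol1' hcard h'.tyu h'.q.fu
  obtain ⟨p, hp, hu2⟩ := List.mem_flatMap.1 hu
  have hm' : m ∈ [0, 1, 2, 3] := by
    have : m = 0 ∨ m = 1 ∨ m = 2 ∨ m = 3 := by omega
    simpa using this
  obtain ⟨A, hA, hT⟩ := Piece.chk_sound hC1 hC1i hR (c1_ok m hm' p hp) (rho (c * u * c⁻¹))
    (by rw [Piece.vis_map]; exact List.mem_map_of_mem hu2)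
  have hb := rel_sound (a := 2) (by omega) hA rfl rfl h'.q hT
  rcases hm0 : Nat.beq m 0 with _ | _
  · rw [hm0] at hb
    exact absurd hb Bool.false_ne_true
  · rw [hm0] at hb
    have e0 := Nat.eq_of_beq_eq_true hm0
    subst e0
    have e1 := eq_of_beq (henv (m := 0) (by norm_num) hA) hb
    have e2 : x0 * (c * u * c⁻¹) = (c * u * c⁻¹) * x0 := by
      have e3 : evG (c * u * c⁻¹ :: rm 0 :: L0) [6, 8, 7, 7, 8, 6, 0] = x0 * (c * u * c⁻¹) := by
        unfold x0 wx0
        simp only [evG_cons, evG_nil, mul_one, mul_assoc]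
        rfl
      have e4 : evG (c * u * c⁻¹ :: rm 0 :: L0) [0, 6, 8, 7, 7, 8, 6] = (c * u * c⁻¹) * x0 := by
        unfold x0 wx0
        simp only [evG_cons, evG_nil, mul_one]
        rfl
      rw [← e3, ← e4]
      exact e1
    exact x0_ne_one (h'.eq_one x0_f1 x0_y0 x0_rm e2)


/-! ### The second type: vectors -/

/-- the stabilizer of a row vector -/
noncomputable def stab (v : ℕ) : Subgroup 𝒢 where
  carrier := {x | ac (tv v) x = tv v}
  one_mem' := ac_one _
  mul_mem' := by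
    intro a b ha hb
    show ac (tv v) (a * b) = tv v
    rw [ac_mul, show ac (tv v) a = tv v from ha]
    exact hb
  inv_mem' := by
    intro a ha
    exact ac_inv ha

theorem mem_stab {v : ℕ} {x : 𝒢} : x ∈ stab v ↔ ac (tv v) x = tv v := Iff.rfl

theorem fix_of {w : List ℕ} {v : ℕ} (h : vword LM w v = v) : evG L0 w ∈ stab v := by
  rw [mem_stab, vword_sound hL, h]

theorem w1_lt : w1 < 2 ^ 112 := by decide +kernel
theorem w3_lt : w3 < 2 ^ 112 := by decide +kernel

theorem ne_of {w w' : List ℕ} {v : ℕ} (hv : v < 2 ^ 112) (h : vword LM w v ≠ vword LM w' v) :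
    ac (tv v) (evG L0 w) ≠ ac (tv v) (evG L0 w') := by
  rw [vword_sound hL, vword_sound hL]
  intro e
  exact h (F2Mat.toVec_inj (vword_lt hv) (vword_lt hv) e)

/-! ### The orbit of `w1` under `I2` -/

theorem exists_orb : ∀ i < 120, ∃ x ∈ I2, ac (tv w1) x = tv (VO.getD i 0) := by
  obtain ⟨L', h', hk⟩ := run_sound codes_gens check_orb
  have h'' : List.Forall₂ (Codes 112) (Cfsg.Agent.H868.JM.LF.map rho) L' := by
    rw [Cfsg.Agent.H868.JM.map_LF]; exact h'
  rw [force_eq, force_eq] at hk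
  have hA := codes_evW h'' [7, 14, 6]
  have hB := codes_evW h'' [7, 40, 6]
  rw [evG_map] at hA hB
  set A := evW 112 L' [7, 14, 6] with hAd
  set B := evW 112 L' [7, 40, 6] with hBd
  have eA : evG Cfsg.Agent.H868.JM.LF [7, 14, 6] = g2 * (Elem.f * g2⁻¹) := by
    rw [Cfsg.Agent.H868.JM.LF_eq]
    simp only [evG_cons, evG_nil, mul_one]
    rw [Elem.f_eq]
    rfl
  have eB : evG Cfsg.Agent.H868.JM.LF [7, 40, 6] = g2 * (t * g2⁻¹) := by
    rw [Cfsg.Agent.H868.JM.LF_eq]
    simp only [evG_cons, evG_nil, mul_one]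
    rfl
  have mA : g2 * (Elem.f * g2⁻¹) ∈ I2 := ⟨Elem.f, Loc7.f_mem, by
    show g2 * Elem.f * g2⁻¹ = _
    rw [mul_assoc]⟩
  have mB : g2 * (t * g2⁻¹) ∈ I2 := ⟨t, Loc7.t_mem, by
    show g2 * t * g2⁻¹ = _
    rw [mul_assoc]⟩
  rw [eA] at hA
  rw [eB] at hB
  unfold chkO at hk
  rw [List.all_eq_true] at hk
  intro i
  induction i using Nat.strong_induction_on with
  | _ i ih =>
    intro hi
    rcases i with _ | i
    · exact ⟨1, Subgroup.one_mem _, by rw [ac_one, VO_zero]⟩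
    · have h1 := tree_lt i (by omega)
      obtain ⟨x, hx, h2⟩ := ih (tree.getD i (0, 0)).1 (by omega) (by omega)
      have h3 := Nat.eq_of_beq_eq_true (hk i (List.mem_range.2 (by omega)))
      by_cases h0 : (tree.getD i (0, 0)).2 = 0
      · rw [if_pos h0] at h3
        refine ⟨x * (g2 * (Elem.f * g2⁻¹)), Subgroup.mul_mem _ hx mA, ?_⟩
        rw [ac_mul, h2, ac_code' hA, h3]
      · rw [if_neg h0] at h3
        refine ⟨x * (g2 * (t * g2⁻¹)), Subgroup.mul_mem _ hx mB, ?_⟩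
        rw [ac_mul, h2, ac_code' hB, h3]

/-- **the stabilizer of `w1` in `I2` is trivial** -/
theorem I2_stab {x : 𝒢} (hx : x ∈ I2) (hs : x ∈ stab w1) : x = 1 := by
  have := finite_J4
  choose g hg1 hg2 using exists_orb
  let F : Fin 120 → I2 := fun i => ⟨g i i.2, hg1 i i.2⟩
  have hF : Function.Injective F := by
    intro i j hij
    have h1 : g i i.2 = g j j.2 := congrArg Subtype.val hij
    have h2 : tv (VO.getD i 0) = tv (VO.getD j 0) := by
      rw [← hg2 i i.2, ← hg2 j j.2, h1]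
    have h3 := F2Mat.toVec_inj (VO_lt i i.2) (VO_lt j j.2) h2
    have hl := VO_length
    have hi : (i : ℕ) < VO.length := by rw [hl]; exact i.2
    have hj : (j : ℕ) < VO.length := by rw [hl]; exact j.2
    rw [List.getD_eq_getElem _ _ hi, List.getD_eq_getElem _ _ hj] at h3
    exact Fin.ext ((List.Nodup.getElem_inj_iff VO_nodup).1 h3)
  have hb : Function.Bijective F := by
    have : Finite I2 := inferInstance
    refine (Nat.bijective_iff_injective_and_card F).2 ⟨hF, ?_⟩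
    rw [Cfsg.Agent.H868.JM.card_I2, Nat.card_eq_fintype_card, Fintype.card_fin]
  have key : ∀ y : 𝒢, ∀ hy : y ∈ I2, y ∈ stab w1 → y = g 0 (by norm_num) := by
    intro y hy hy2
    obtain ⟨i, hi⟩ := hb.2 ⟨y, hy⟩
    have h1 : g i i.2 = y := congrArg Subtype.val hi
    have h2 : tv (VO.getD i 0) = tv (VO.getD 0 0) := by
      rw [← hg2 i i.2, h1, VO_zero]; exact hy2
    have h3 := F2Mat.toVec_inj (VO_lt i i.2) (VO_lt 0 (by norm_num)) h2
    have hl := VO_length
    have hi' : (i : ℕ) < VO.length := by rw [hl]; exact i.2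
    have hj : 0 < VO.length := by rw [hl]; norm_num
    rw [List.getD_eq_getElem _ _ hi', List.getD_eq_getElem _ _ hj] at h3
    have h4 := (List.Nodup.getElem_inj_iff VO_nodup).1 h3
    rw [← h1]
    congr 1
  rw [key x hx hs, ← key 1 (Subgroup.one_mem _) (Subgroup.one_mem _)]


/-! ### The second type: the group -/

/-- Sylow 7-subgroups of a group of order 20160 -/
theorem sylow7 {S : Subgroup 𝒢} (hc : Nat.card S = 20160) {x x' : 𝒢} (hx : x ∈ S) (hx' : x' ∈ S)
    (ho : orderOf x = 7) (ho' : orderOf x' = 7) :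
    ∃ a ∈ S, a * x' * a⁻¹ ∈ Subgroup.zpowers x := by
  have := finite_J4
  have hp : Fact (Nat.Prime 7) := ⟨by norm_num⟩
  have h1 : Nat.card (Subgroup.zpowers (⟨x', hx'⟩ : S)) = 7 := by
    rw [Nat.card_zpowers, Subgroup.orderOf_mk, ho']
  have h2 : Nat.card (Subgroup.zpowers (⟨x, hx⟩ : S)) = 7 := by
    rw [Nat.card_zpowers, Subgroup.orderOf_mk, ho]
  obtain ⟨a, ha⟩ := Abs.exists_conj_prime h1 h2 (by rw [hc]; norm_num)
  refine ⟨a, a.2, ?_⟩
  have h3 : a * ⟨x', hx'⟩ * a⁻¹ ∈ Subgroup.zpowers (⟨x, hx⟩ : S) := by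
    rw [← ha]
    exact ⟨⟨x', hx'⟩, Subgroup.mem_zpowers _, rfl⟩
  obtain ⟨k, hk⟩ := Subgroup.mem_zpowers_iff.1 h3
  exact Subgroup.mem_zpowers_iff.2 ⟨k, by
    have := congrArg Subtype.val hk
    simpa using this⟩

theorem e_f2 : evG L0 [2] = f2 := by rw [evG_cons, evG_nil, mul_one]; rfl
theorem e_y : evG L0 [9] = yy := by rw [evG_cons, evG_nil, mul_one]; rfl
theorem e_c6 : evG L0 [7, 7] = c6 ^ 2 := by
  rw [pow_two]; simp only [evG_cons, evG_nil, mul_one]; rfl
theorem e_c63 : evG L0 [7, 7, 7] = c6 ^ 3 := by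
  rw [pow_succ, pow_two]; simp only [evG_cons, evG_nil, mul_one, mul_assoc]; rfl

theorem final {m : ℕ} (hm : m = 4 ∨ m = 5) {M S : Subgroup 𝒢} {u : 𝒢} (h : Cf M S f2 (rm m) u)
    (h1 : u ∈ stab w1) (h3 : u ∈ stab w3) : False := by
  have := finite_J4
  -- the facts on vectors
  obtain ⟨a1, a2, a4, a5⟩ := v_w1
  obtain ⟨b1, b2, b4, b5, b6, b7⟩ := v_w3
  have r1 : rm m ∈ stab w1 := by
    rcases hm with rfl | rfl
    · exact fix_of (w := rw4) a4
    · exact fix_of (w := rw5) a5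
  have r3 : rm m ∈ stab w3 := by
    rcases hm with rfl | rfl
    · exact fix_of (w := rw4) b4
    · exact fix_of (w := rw5) b5
  have hc6 : ac (tv w3) (c6 ^ 2 * rm m) ≠ ac (tv w3) (c6 ^ 2) := by
    rcases hm with rfl | rfl
    · have := ne_of w3_lt v_c6.1
      rwa [evG_append', e_c6] at this
    · have := ne_of w3_lt v_c6.2
      rwa [evG_append', e_c6] at this
  have hz1 : ac (tv w1) (evG L0 wz * rm m) ≠ ac (tv w1) (evG L0 wz) := by
    rcases hm with rfl | rfl
    · have := ne_of w1_lt v_z.1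
      rwa [evG_append'] at this
    · have := ne_of w1_lt v_z.2
      rwa [evG_append'] at this
  have hz3 : evG L0 wz ∈ stab w3 := fix_of b7
  have f2w1 : f2 ∈ stab w1 := by rw [← e_f2]; exact fix_of a1
  have f2w3 : f2 ∈ stab w3 := by rw [← e_f2]; exact fix_of b1
  have yw1 : yy ∈ stab w1 := by rw [← e_y]; exact fix_of a2
  have yw3 : yy ∈ stab w3 := by rw [← e_y]; exact fix_of b2
  have cw3 : c6 ^ 3 ∈ stab w3 := by rw [← e_c63]; exact fix_of b6
  have hS1 : S ≤ stab w1 := h.le f2w1 yw1 r1 h1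
  have hS3 : S ≤ stab w3 := h.le f2w3 yw3 r3 h3
  have hnorm : ∀ g ∈ M, ∀ x ∈ S, g * x * g⁻¹ ∈ S := fun g hg x hx =>
    (Subgroup.mem_normalizer_iff.1 (h.nl.norm hg) x).1 hx
  -- an element `g` with `g (rm m) g⁻¹` fixing the vector `v`
  have hmove : ∀ (v : ℕ) (g : 𝒢), g * rm m * g⁻¹ ∈ stab v →
      ac (tv v) (g * rm m) = ac (tv v) g := by
    intro v g hg
    have e : g * rm m = (g * rm m * g⁻¹) * g := by group
    rw [e, ac_mul, mem_stab.1 hg]
  have hc2 : c6 ^ 2 ∉ M := fun hc => hc6 (hmove w3 _ (hS3 (hnorm _ hc _ h.t_mem)))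
  have key : M ≤ stab w3 := by
    intro g hg
    have o2 : orderOf f2 = 7 := Cfsg.Agent.H868.JM.orderOf_f2
    obtain ⟨a, ha, h4⟩ := sylow7 h.card h.f_mem (hnorm g hg _ h.f_mem) o2 (by
      rw [show g * f2 * g⁻¹ = MulAut.conj g f2 from rfl]
      exact (orderOf_injective (MulAut.conj g).toMonoidHom (MulAut.conj g).injective f2).trans o2)
    have h5 : a * g * f2 * (a * g)⁻¹ ∈ Subgroup.zpowers f2 := by
      have e : a * g * f2 * (a * g)⁻¹ = a * (g * f2 * g⁻¹) * a⁻¹ := by group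
      rw [e]; exact h4
    obtain ⟨b, hb, i, j, h6⟩ := Cfsg.Agent.H868.JM.norm_2 h5
    rw [y0_eq] at h6
    have hfM : f2 ∈ M := h.nl.le h.f_mem
    have hyM : yy ∈ M := h.nl.le h.y_mem
    have haM : a ∈ M := h.nl.le ha
    have hbM : b ∈ M := by
      have e : b = (f2 ^ i)⁻¹ * ((yy ^ j)⁻¹ * (a * g)) := by rw [h6]; group
      rw [e]
      exact M.mul_mem (M.inv_mem (M.pow_mem hfM i)) (M.mul_mem (M.inv_mem (M.pow_mem hyM j))
        (M.mul_mem haM hg))
    have h7 : b * yy * b⁻¹ * yy⁻¹ = 1 := by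
      apply I2_stab
      · have e : b * yy * b⁻¹ * yy⁻¹ = b * (yy * b⁻¹ * yy⁻¹) := by group
        rw [e]
        refine Subgroup.mul_mem _ hb ?_
        have := Cfsg.Agent.H868.JM.y0_I2 (Subgroup.inv_mem _ hb)
        rwa [y0_eq] at this
      · exact hS1 (S.mul_mem (hnorm b hbM _ h.y_mem) (S.inv_mem h.y_mem))
    have h8 : b * yy = yy * b := mul_inv_eq_iff_eq_mul.1 (mul_inv_eq_one.1 h7)
    have h9 : b ∈ Subgroup.zpowers c6 := by
      rw [Cfsg.Agent.H868.JM.cent_2, y0_eq]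
      exact ⟨Cfsg.Agent.H868.JM.I2_comm hb, h8⟩
    obtain ⟨k, hk⟩ := (Submonoid.mem_powers_iff _ _).1 (mem_powers_iff_mem_zpowers.2 h9)
    have c6m : ∀ n l : ℕ, n % 6 = l % 6 → c6 ^ n = c6 ^ l := by
      intro n l e
      rw [← Nat.div_add_mod n 6, ← Nat.div_add_mod l 6, e, pow_add, pow_add, pow_mul, pow_mul,
        Cfsg.Agent.H868.JM.c6_pow, one_pow, one_pow]
    have h10 : k % 3 = 0 := by
      by_contra hne
      have h11 : k % 3 = 1 ∨ k % 3 = 2 := by omega
      rcases h11 with h11 | h11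
      · apply hc2
        have e : c6 ^ 2 = b ^ 2 := by
          rw [← hk, ← pow_mul]; exact c6m _ _ (by omega)
        rw [e]; exact M.pow_mem hbM 2
      · apply hc2
        have e : c6 ^ 2 = b ^ 4 := by
          rw [← hk, ← pow_mul]; exact c6m _ _ (by omega)
        rw [e]; exact M.pow_mem hbM 4
    have hb3 : b ∈ stab w3 := by
      have e : b = (c6 ^ 3) ^ (k / 3) := by
        rw [← hk, ← pow_mul]; congr 1; omega
      rw [e]; exact Subgroup.pow_mem _ cw3 _
    have e : g = a⁻¹ * (yy ^ j * (f2 ^ i * b)) := by rw [← h6]; group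
    rw [e]
    exact Subgroup.mul_mem _ (Subgroup.inv_mem _ (hS3 ha)) (Subgroup.mul_mem _
      (Subgroup.pow_mem _ yw3 j) (Subgroup.mul_mem _ (Subgroup.pow_mem _ f2w3 i) hb3))
  have hne : stab w3 ≠ ⊤ := by
    intro ht
    apply hc6
    have e1 : c6 ^ 2 * rm m ∈ stab w3 := by rw [ht]; exact Subgroup.mem_top _
    have e2 : c6 ^ 2 ∈ stab w3 := by rw [ht]; exact Subgroup.mem_top _
    rw [mem_stab.1 e1, mem_stab.1 e2]
  have hM : M = stab w3 := by
    rcases key.eq_or_lt with h4 | h4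
    · exact h4
    · exact absurd (h.nl.coatom.2 _ h4) hne
  have hzM : evG L0 wz ∈ M := by rw [hM]; exact hz3
  exact hz1 (hmove w1 _ (hS1 (hnorm _ hzM _ h.t_mem)))

theorem no_two (hcard : Nat.card {t // TY t} ≤ 10296) {M S : Subgroup 𝒢} {t u : 𝒢}
    (h : Cf M S f2 t u) : False := by
  have := finite_J4
  obtain ⟨m, hm4, hm8, c, hc1, hc2, hc3⟩ := sol2 hcard h.tyt h.q.ft
  have h' := h.conj hc1 hc2
  rw [hc3] at h'
  obtain ⟨hu, -⟩ := sol2' hcard h'.tyu h'.q.fu
  obtain ⟨p, hp, hu2⟩ := List.mem_flatMap.1 hu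
  have hm' : m ∈ [4, 5, 6, 7] := by
    have : m = 4 ∨ m = 5 ∨ m = 6 ∨ m = 7 := by omega
    simpa using this
  obtain ⟨A, hA, hT⟩ := Piece.chk_sound hC2 hC2i hR (c2_ok m hm' p hp) (rho (c * u * c⁻¹))
    (by rw [Piece.vis_map]; exact List.mem_map_of_mem hu2)
  have hb := rel_sound (a := 4) hm8 hA rfl rfl h'.q hT
  rcases h5 : Nat.ble m 5 with _ | _
  · rw [h5] at hb
    exact absurd hb Bool.false_ne_true
  · rw [h5] at hb
    have h6 : m ≤ 5 := Nat.le_of_ble_eq_true h5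
    rcases h7 : Nat.beq (vmul 112 w1 A) w1 with _ | _
    · rw [h7] at hb
      exact absurd hb Bool.false_ne_true
    · rw [h7] at hb
      have h8 := Nat.eq_of_beq_eq_true hb
      have h9 := Nat.eq_of_beq_eq_true h7
      refine final (m := m) (by omega) h' ?_ ?_
      · rw [mem_stab, ac_code' hA, h9]
      · rw [mem_stab, ac_code' hA, h8]

/-! ### The result -/

theorem quad_inv {f y t u : 𝒢} (h : Quad f⁻¹ y t u) : Quad f y u t := by
  have hti : t⁻¹ = t := inv_eq_of_mul_eq_one_left h.tt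
  have hui : u⁻¹ = u := inv_eq_of_mul_eq_one_left h.uu
  have e3 : ∀ v : 𝒢, v⁻¹ = v → f⁻¹ * v * (f⁻¹ * v) * (f⁻¹ * v) = 1 →
      f * v * (f * v) * (f * v) = 1 := by
    intro v hv h1
    have h2 : (f⁻¹ * v * (f⁻¹ * v) * (f⁻¹ * v))⁻¹ = 1 := by rw [h1, inv_one]
    simp only [mul_inv_rev, inv_inv, hv] at h2
    have h3 : f * v * (f * v) * (f * v) = v⁻¹ * (v * f * (v * f * (v * f))) * v := by group
    rw [h3]
    simp only [mul_assoc] at h2 ⊢
    rw [← mul_assoc f v, ← mul_assoc f v] at h2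
    calc v⁻¹ * (v * (f * (v * (f * (v * (f * v)))))) = v⁻¹ * (v * (f * (v * (f * (v * f))))) * v := by group
      _ = v⁻¹ * 1 * v := by
        congr 2
        rw [← h2]; group
      _ = 1 := by group
  refine ⟨?_, ?_, ?_, h.y3, h.uu, h.uy, e3 u hui h.fu, h.tt, h.ty, e3 t hti h.ft, h.ne.symm, ?_, ?_⟩
  · intro hf
    apply h.f1
    rw [hf, inv_one]
  · have h1 := h.f7
    rw [inv_pow, inv_eq_one] at h1
    exact h1
  · have h1 := congrArg (fun z => z⁻¹) h.yf
    simp only [mul_inv_rev, inv_inv, inv_pow] at h1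
    rw [← h1]; group
  · have h1 : (t * u * (t * u) * (t * u))⁻¹ = 1 := by rw [h.tu, inv_one]
    simp only [mul_inv_rev, hti, hui] at h1
    rw [← h1]; group
  · have h1 := h.tfu
    rw [inv_inv] at h1
    have h2 : u * f * t * f⁻¹ * (u * f * t * f⁻¹) * (u * f * t * f⁻¹) * (u * f * t * f⁻¹) =
        (u * f) * (t * f⁻¹ * u * f * (t * f⁻¹ * u * f) * (t * f⁻¹ * u * f) * (t * f⁻¹ * u * f)) *
          (u * f)⁻¹ := by group
    rw [h2, h1]; group

/-- **`PSL₃(4)` is not the socle of a maximal subgroup of `J4`** -/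
theorem excl (hcard : Nat.card {t // TY t} ≤ 10296) {F : Type} [Field F] [Fintype F]
    (hF : Fintype.card F = 4) : Excl (Matrix.ProjectiveSpecialLinearGroup (Fin 3) F) := by
  rintro M S hN ⟨e⟩
  obtain ⟨f', y', t', u', hq, hcl⟩ := exists_quad hF e
  have hc : Nat.card S = 20160 := by
    rw [Nat.card_congr e.toEquiv]
    exact Cfsg.Agent.CTwoTab.card_PSL_three F hF
  have hq' : Quad (f' : 𝒢) (y' : 𝒢) (t' : 𝒢) (u' : 𝒢) := hq.map S.subtype S.subtype_injective
  have hcl' : S = Subgroup.closure {(f' : 𝒢), (y' : 𝒢), (t' : 𝒢), (u' : 𝒢)} := by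
    have h1 := congrArg (Subgroup.map S.subtype) hcl
    rw [MonoidHom.map_closure, Set.image_insert_eq, Set.image_insert_eq, Set.image_insert_eq,
      Set.image_singleton, ← MonoidHom.range_eq_map, Subgroup.range_subtype] at h1
    exact h1.symm
  have h7 : Fact (Nat.Prime 7) := ⟨by norm_num⟩
  have ho : orderOf (f' : 𝒢) = 7 := orderOf_eq_prime hq'.f7 hq'.f1
  obtain ⟨g, hg1, hg2⟩ := Cfsg.Agent.H868.JM.seven_three ho hq'.y3 hq'.yf
  rw [y0_eq] at hg1
  have hN' := NL_cj g hN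
  have hc' : Nat.card (cj g S) = 20160 := by rw [Cfsg.Agent.H860.JM.card_cj, hc]
  have hQ := quad_conj hq' g
  have hC : cj g S = Subgroup.closure {g * (f' : 𝒢) * g⁻¹, yy, g * (t' : 𝒢) * g⁻¹,
      g * (u' : 𝒢) * g⁻¹} := by
    have h1 := congrArg (cj g) hcl'
    rw [cj_closure, hg1] at h1
    exact h1
  rw [hg1] at hQ
  have hswap : ∀ f : 𝒢, g * (f' : 𝒢) * g⁻¹ = f⁻¹ → Cf (cj g M) (cj g S) f (g * (u' : 𝒢) * g⁻¹)
      (g * (t' : 𝒢) * g⁻¹) := by
    intro f hf
    rw [hf] at hQ hC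
    refine ⟨hN', hc', quad_inv hQ, ?_⟩
    rw [hC]
    apply le_antisymm
    · rw [Subgroup.closure_le]
      rintro x (rfl | rfl | rfl | rfl)
      · exact Subgroup.inv_mem _ (Subgroup.subset_closure (by simp))
      · exact Subgroup.subset_closure (by simp)
      · exact Subgroup.subset_closure (by simp)
      · exact Subgroup.subset_closure (by simp)
    · rw [Subgroup.closure_le]
      rintro x (rfl | rfl | rfl | rfl)
      · have h1 : x⁻¹ ∈ Subgroup.closure {x⁻¹, yy, g * (t' : 𝒢) * g⁻¹, g * (u' : 𝒢) * g⁻¹} :=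
          Subgroup.subset_closure (by simp)
        have h2 := Subgroup.inv_mem _ h1
        rwa [inv_inv] at h2
      · exact Subgroup.subset_closure (by simp)
      · exact Subgroup.subset_closure (by simp)
      · exact Subgroup.subset_closure (by simp)
  rcases hg2 with h1 | h1 | h1 | h1
  · rw [h1] at hQ hC
    exact no_one hcard ⟨hN', hc', hQ, hC⟩
  · exact no_one hcard (hswap f1 h1)
  · rw [h1] at hQ hC
    exact no_two hcard ⟨hN', hc', hQ, hC⟩
  · exact no_two hcard (hswap f2 h1)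

end Cfsg.Agent.H868.JM.L34
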