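import Cfsg.Agent.H858.Loc7
import Cfsg.Agent.H860.JM.Defs

/-!
# Two Frobenius groups of order 21 in `J4` with a common element of order 3

The element `y0` of order 3, elements `f1`, `f2` of order 7 with `y0 f y0⁻¹ = f ^ 2`, and generators of
the centralizers of `⟨f1, y0⟩` (symmetric of degree 5) and `⟨f2, y0⟩` (cyclic of order 6).
-/

set_option autoImplicit false

open Cfsg

namespace Cfsg.Agent.H868.JM

open Cfsg.Agent.Lib Cfsg.Agent.Lib.F2MatGroup
open Cfsg.Agent.J4.Rep112 Cfsg.Agent.J4.Pres Cfsg.Agent.J4.LowerData Cfsg.Agent.J4.Lower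
open Cfsg.Agent.J4.M24Hom Cfsg.Agent.J4.Packed Cfsg.Agent.J4.Nodes Cfsg.Agent.J4.Beta Cfsg.Agent.J4.Classes
open Cfsg.Agent.H858.VK Cfsg.Agent.H858.Data Cfsg.Agent.H858.Elem

/-! ### Words -/

/-- word of the first conjugating element (letters `0, 1, 2` for `x, y, y⁻¹`) -/
def u1 : List ℕ := [1, 0, 2, 0, 1, 0, 1, 0, 2, 0, 2, 0, 2, 0, 2, 0, 1, 0, 2, 0, 2, 0, 1, 0, 2, 0, 1,
  0, 1, 0]
/-- word (see `wg2`) -/
def uA : List ℕ := [2, 0, 2, 0, 2, 0, 1, 0, 1, 0, 2, 0, 1, 0, 1, 0, 2]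
/-- word (see `wg2`) -/
def uB : List ℕ := [1, 0, 1, 0, 1, 0, 2, 0, 2, 0, 1, 0, 1, 0, 2, 0, 1, 0, 1]
/-- word (see `wg2`) -/
def uh : List ℕ := [1, 0, 2, 0, 2, 0, 2, 0, 1, 0, 2, 0, 1, 0, 2, 0, 1, 0, 2, 0, 2, 0, 1, 0, 1, 0, 1,
  0, 1, 0, 1, 0, 2, 0]

/-- the inverse word -/
def winv (l : List ℕ) : List ℕ := (l.map fun i => if i = 0 then 0 else if i = 1 then 2 else 1).reverse

/-- a word in `x`, `y`, `y⁻¹` as a word in the environment shifted by `k` -/
def wx (k : ℕ) (l : List ℕ) : List ℕ := l.map fun i => 26 + k + i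

/-- the word of the second conjugating element in the environment shifted by `k` -/
def wg2 (k : ℕ) : List ℕ := wx k (winv uB) ++ [29 + k] ++ wx k (winv uA) ++ bw 11 (13 + k) 2 ++
  [29 + k] ++ bw 11 (13 + k) 1666 ++ wx k uh

/-- the word of the inverse of the second conjugating element -/
def wg2i (k : ℕ) : List ℕ := wx k (winv uh) ++ bw 11 (13 + k) 1666 ++ [29 + k] ++
  bw 11 (13 + k) 2 ++ wx k uA ++ [29 + k] ++ wx k uB

/-- the program: `e, g1, g1⁻¹, g2, g2⁻¹, y0, f1, q1, t1, f2, c6` -/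
def slpF : List (List ℕ) := [
  le.map ixK,
  wx 1 u1,
  wx 2 (winv u1),
  wg2 3,
  wg2i 4,
  [3, 4, 8 + 5, 2],
  [4, 9 + 6, 3],
  [5, 3 + 7, 4],
  [6, 29 + 8, 5],
  [5, 9 + 9, 4],
  [6, 8 + 10, 29 + 10, 5]]

/-- equations -/
def eqsF : List (List ℕ × List ℕ) := [([9, 8], []), ([7, 6], []), ([7, 10, 6], [5])]

theorem checkF : run 112 (slpQ ++ (slpX ++ slpF)) codes (fun L => eqs 112 eqsF L) = true := by
  decide +kernel

/-! ### The environment -/

/-- the environment -/
noncomputable def LF : List Cfsg.Spor.J4 := runG slpF LX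

theorem map_LF : LF.map rho = runG (slpQ ++ (slpX ++ slpF)) mgens := by
  unfold LF
  rw [← runG_map, map_LX, ← runG_append, List.append_assoc]

theorem soundF : ∀ p ∈ eqsF, evG LF p.1 = evG LF p.2 := by
  obtain ⟨L', h', hk⟩ := run_sound codes_gens checkF
  have h'' : List.Forall₂ (Codes 112) (LF.map rho) L' := by rw [map_LF]; exact h'
  intro p hp
  apply rho_injective
  rw [← evG_map, ← evG_map]
  exact eqs_sound h'' hk p hp

/-- words in `x`, `y`, `y⁻¹` -/
theorem evG_wx (P : List Cfsg.Spor.J4) {l : List ℕ} (hl : ∀ i ∈ l, i < 3) :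
    evG (P ++ LX) (wx P.length l) = phi (wordG l) := by
  have h : ∀ i < 3, getG (P ++ LX) (26 + P.length + i) = phi (letG i) := by
    intro i hi
    have h1 : getG (P ++ LX) (26 + P.length + i) = getG LX (26 + i) := by
      unfold getG
      rw [List.getD_append_right _ _ _ _ (by omega)]
      congr 1
      omega
    rw [h1]
    have h2 : i = 0 ∨ i = 1 ∨ i = 2 := by omega
    rcases h2 with rfl | rfl | rfl
    · exact g26.trans phi_X.symm
    · exact g27.trans phi_Y.symm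
    · exact g28.trans ((congrArg _ phi_Y).symm.trans (map_inv phi _).symm)
  induction l with
  | nil => exact (map_one phi).symm
  | cons a l ih =>
    unfold wx at ih ⊢
    rw [List.map_cons, evG_cons, ih (fun i hi => hl i (List.mem_cons_of_mem _ hi)),
      h a (hl a List.mem_cons_self), ← map_mul]
    rfl

/-- vectors -/
theorem evG_bwP (P : List Cfsg.Spor.J4) (v : ℕ) :
    evG (P ++ LX) (bw 11 (13 + P.length) v) = V v := by
  have h := evG_bw (P ++ LX) lJ (13 + P.length) v (by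
    rw [lJ_length]
    intro i hi
    have h1 : getG (P ++ LX) (13 + P.length + i) = getG LX (13 + i) := by
      unfold getG
      rw [List.getD_append_right _ _ _ _ (by omega)]
      congr 1
      omega
    rw [h1]
    exact getG_LX hi)
  rwa [lJ_length] at h

/-- the first conjugating element -/
noncomputable def g1 : Cfsg.Spor.J4 := phi (wordG u1)
/-- the second conjugating element -/
noncomputable def g2 : Cfsg.Spor.J4 := phi (wordG (winv uB)) * (t * (phi (wordG (winv uA)) *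
  (V 2 * (t * (V 1666 * phi (wordG uh))))))
/-- the element of order 3 -/
noncomputable def y0 : Cfsg.Spor.J4 := g1 * (e * c) * g1⁻¹
/-- the first element of order 7 -/
noncomputable def f1 : Cfsg.Spor.J4 := g1 * s * g1⁻¹
/-- the second element of order 7 -/
noncomputable def f2 : Cfsg.Spor.J4 := g2 * s * g2⁻¹
/-- an element of order 5 commuting with `f1`, `y0` -/
noncomputable def q1 : Cfsg.Spor.J4 := g1 * f * g1⁻¹
/-- an involution commuting with `f1`, `y0` -/
noncomputable def t1 : Cfsg.Spor.J4 := g1 * t * g1⁻¹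
/-- an element of order 6 commuting with `f2`, `y0` -/
noncomputable def c6 : Cfsg.Spor.J4 := g2 * (c * t) * g2⁻¹

theorem XM_sq : XM * XM = 1 := by
  have h : wordG [0, 0] = wordG [] := Cfsg.Agent.H858.M24Norm.wordG_eq (by decide +kernel)
  simpa [wordG, letG0] using h

theorem letG_inv {i : ℕ} (hi : i < 3) :
    letG (if i = 0 then 0 else if i = 1 then 2 else 1) = (letG i)⁻¹ := by
  have h2 : i = 0 ∨ i = 1 ∨ i = 2 := by omega
  rcases h2 with rfl | rfl | rfl
  · exact eq_inv_of_mul_eq_one_left XM_sq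
  · rfl
  · show YM = (YM⁻¹)⁻¹
    rw [inv_inv]

theorem wordG_winv {l : List ℕ} (hl : ∀ i ∈ l, i < 3) : wordG (winv l) = (wordG l)⁻¹ := by
  induction l with
  | nil => exact inv_one.symm
  | cons a l ih =>
    have e1 : winv (a :: l) = winv l ++ [if a = 0 then 0 else if a = 1 then 2 else 1] := by
      unfold winv
      rw [List.map_cons, List.reverse_cons]
    rw [e1, Cfsg.Agent.H858.M24Norm.wordG_append, ih (fun i hi => hl i (List.mem_cons_of_mem _ hi))]
    have e2 : wordG [if a = 0 then 0 else if a = 1 then 2 else 1] = (letG a)⁻¹ := by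
      rw [← letG_inv (hl a List.mem_cons_self)]
      exact mul_one _
    have e3 : wordG (a :: l) = letG a * wordG l := rfl
    rw [e2, e3, mul_inv_rev]

theorem phi_winv {l : List ℕ} (hl : ∀ i ∈ l, i < 3) :
    phi (wordG (winv l)) = (phi (wordG l))⁻¹ := by rw [wordG_winv hl, map_inv]

theorem g1_inv : phi (wordG (winv u1)) = g1⁻¹ := phi_winv (by decide)

theorem g2_inv : phi (wordG (winv uh)) * (V 1666 * (t * (V 2 * (phi (wordG uA) *
    (t * phi (wordG uB)))))) = g2⁻¹ := by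
  have ht : t⁻¹ = t := inv_eq_of_mul_eq_one_left t_sq
  unfold g2
  simp only [mul_inv_rev]
  rw [phi_winv (l := uh) (by decide), phi_winv (l := uA) (by decide),
    phi_winv (l := uB) (by decide), V_inv, V_inv, ht, inv_inv, inv_inv]
  simp only [mul_assoc]

theorem evG_wg2 (P : List Cfsg.Spor.J4) : evG (P ++ LX) (wg2 P.length) = g2 := by
  have ht : getG (P ++ LX) (29 + P.length) = t := by
    unfold getG
    rw [List.getD_append_right _ _ _ _ (by omega), Nat.add_sub_cancel]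
    exact g29
  unfold wg2
  simp only [evG_append, evG_cons, evG_nil, mul_one]
  rw [evG_wx P (by decide), evG_wx P (by decide), evG_wx P (by decide), evG_bwP, evG_bwP, ht]
  unfold g2
  simp only [mul_assoc]

theorem evG_wg2i (P : List Cfsg.Spor.J4) : evG (P ++ LX) (wg2i P.length) = g2⁻¹ := by
  have ht : getG (P ++ LX) (29 + P.length) = t := by
    unfold getG
    rw [List.getD_append_right _ _ _ _ (by omega), Nat.add_sub_cancel]
    exact g29
  unfold wg2i
  simp only [evG_append, evG_cons, evG_nil, mul_one]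
  rw [evG_wx P (by decide), evG_wx P (by decide), evG_wx P (by decide), evG_bwP, evG_bwP, ht,
    ← g2_inv]
  simp only [mul_assoc]

theorem getG_nth (P : List Cfsg.Spor.J4) (i : ℕ) :
    getG (P ++ LX) (i + P.length) = getG LX i := by
  unfold getG
  rw [List.getD_append_right _ _ _ _ (by omega), Nat.add_sub_cancel]

/-- **the environment** -/
theorem LF_eq : LF = [c6, f2, t1, q1, f1, y0, g2⁻¹, g2, g1⁻¹, g1, e] ++ LX := by
  have h0 : evG LX (le.map ixK) = e := (phi_kw le).symm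
  have h1 : evG (e :: LX) (wx 1 u1) = g1 := evG_wx [e] (by decide)
  have h2 : evG (g1 :: e :: LX) (wx 2 (winv u1)) = g1⁻¹ :=
    (evG_wx [g1, e] (by decide)).trans g1_inv
  have h3 : evG (g1⁻¹ :: g1 :: e :: LX) (wg2 3) = g2 := evG_wg2 [g1⁻¹, g1, e]
  have h4 : evG (g2 :: g1⁻¹ :: g1 :: e :: LX) (wg2i 4) = g2⁻¹ := evG_wg2i [g2, g1⁻¹, g1, e]
  have h5 : evG (g2⁻¹ :: g2 :: g1⁻¹ :: g1 :: e :: LX) [3, 4, 8 + 5, 2] = y0 := by
    have h := getG_nth [g2⁻¹, g2, g1⁻¹, g1, e] 8
    simp only [evG_cons, evG_nil, mul_one]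
    rw [show getG (g2⁻¹ :: g2 :: g1⁻¹ :: g1 :: e :: LX) (8 + 5) = c from h.trans g8]
    unfold y0
    simp only [mul_assoc]
    rfl
  have h6 : evG (y0 :: g2⁻¹ :: g2 :: g1⁻¹ :: g1 :: e :: LX) [4, 9 + 6, 3] = f1 := by
    have h := getG_nth [y0, g2⁻¹, g2, g1⁻¹, g1, e] 9
    simp only [evG_cons, evG_nil, mul_one]
    rw [show getG (y0 :: g2⁻¹ :: g2 :: g1⁻¹ :: g1 :: e :: LX) (9 + 6) = s from h.trans g9]
    unfold f1
    simp only [mul_assoc]
    rfl
  have h7 : evG (f1 :: y0 :: g2⁻¹ :: g2 :: g1⁻¹ :: g1 :: e :: LX) [5, 3 + 7, 4] = q1 := by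
    have h := getG_nth [f1, y0, g2⁻¹, g2, g1⁻¹, g1, e] 3
    simp only [evG_cons, evG_nil, mul_one]
    rw [show getG (f1 :: y0 :: g2⁻¹ :: g2 :: g1⁻¹ :: g1 :: e :: LX) (3 + 7) = f from h.trans g3]
    unfold q1
    simp only [mul_assoc]
    rfl
  have h8 : evG (q1 :: f1 :: y0 :: g2⁻¹ :: g2 :: g1⁻¹ :: g1 :: e :: LX) [6, 29 + 8, 5] = t1 := by
    have h := getG_nth [q1, f1, y0, g2⁻¹, g2, g1⁻¹, g1, e] 29
    simp only [evG_cons, evG_nil, mul_one]
    rw [show getG (q1 :: f1 :: y0 :: g2⁻¹ :: g2 :: g1⁻¹ :: g1 :: e :: LX) (29 + 8) = t from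
      h.trans g29]
    unfold t1
    simp only [mul_assoc]
    rfl
  have h9 : evG (t1 :: q1 :: f1 :: y0 :: g2⁻¹ :: g2 :: g1⁻¹ :: g1 :: e :: LX) [5, 9 + 9, 4] =
      f2 := by
    have h := getG_nth [t1, q1, f1, y0, g2⁻¹, g2, g1⁻¹, g1, e] 9
    simp only [evG_cons, evG_nil, mul_one]
    rw [show getG (t1 :: q1 :: f1 :: y0 :: g2⁻¹ :: g2 :: g1⁻¹ :: g1 :: e :: LX) (9 + 9) = s from
      h.trans g9]
    unfold f2
    simp only [mul_assoc]
    rfl
  have h10 : evG (f2 :: t1 :: q1 :: f1 :: y0 :: g2⁻¹ :: g2 :: g1⁻¹ :: g1 :: e :: LX)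
      [6, 8 + 10, 29 + 10, 5] = c6 := by
    have h := getG_nth [f2, t1, q1, f1, y0, g2⁻¹, g2, g1⁻¹, g1, e] 8
    have h' := getG_nth [f2, t1, q1, f1, y0, g2⁻¹, g2, g1⁻¹, g1, e] 29
    simp only [evG_cons, evG_nil, mul_one]
    rw [show getG (f2 :: t1 :: q1 :: f1 :: y0 :: g2⁻¹ :: g2 :: g1⁻¹ :: g1 :: e :: LX) (8 + 10) = c
      from h.trans g8,
      show getG (f2 :: t1 :: q1 :: f1 :: y0 :: g2⁻¹ :: g2 :: g1⁻¹ :: g1 :: e :: LX) (29 + 10) = t
      from h'.trans g29]
    unfold c6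
    simp only [mul_assoc]
    rfl
  unfold LF slpF
  rw [runG_cons, h0, runG_cons, h1, runG_cons, h2, runG_cons, h3, runG_cons, h4, runG_cons, h5,
    runG_cons, h6, runG_cons, h7, runG_cons, h8, runG_cons, h9, runG_cons, h10, runG_nil]
  rfl

/-- `g2` conjugates `e` into `y0` -/
theorem g2_e : g2 * e * g2⁻¹ = y0 := by
  have h := soundF ([7, 10, 6], [5]) (by decide)
  rw [LF_eq] at h
  simp only [evG_cons, evG_nil, mul_one] at h
  rw [mul_assoc]
  exact h

/-! ### The packed forms -/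

/-- the packed form of `y0` -/
def K0 : ℕ := nat_lit 3547778295639655215508762064528111922327758022790040528928

/-- a word of `y0` -/
def wy : List ℕ := u1 ++ (ex le ++ (ex lc ++ winv u1))
/-- a word of `f1` -/
def wf : List ℕ := u1 ++ (ex ls ++ winv u1)

theorem rep_K0 : Rep K0 (wordG wy) := rep_of_word wy (by decide +kernel)

theorem y0_word : y0 = phi (wordG wy) := by
  unfold wy
  rw [Cfsg.Agent.H858.M24Norm.wordG_append, Cfsg.Agent.H858.M24Norm.wordG_append,
    Cfsg.Agent.H858.M24Norm.wordG_append, ← kw_eq, ← kw_eq, map_mul, map_mul, map_mul, g1_inv]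
  unfold y0 g1
  rw [show phi (kw le) = e from rfl, show phi (kw lc) = c from rfl]
  simp only [mul_assoc]

theorem f1_word : f1 = phi (wordG wf) := by
  unfold wf
  rw [Cfsg.Agent.H858.M24Norm.wordG_append, Cfsg.Agent.H858.M24Norm.wordG_append, ← kw_eq,
    map_mul, map_mul, g1_inv]
  unfold f1 g1
  rw [show phi (kw ls) = s from rfl]
  simp only [mul_assoc]

theorem y0_el : y0 = phi (el K0) := by rw [y0_word, el_eq rep_K0]

end Cfsg.Agent.H868.JM
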